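import Cfsg.Agent.Blocks.Orth.Subsection
import Cfsg.Agent.Blocks.Covering.Basic
import Cfsg.Agent.Blocks.HeightZero.RegularPair
import Cfsg.Agent.Blocks.HeightZero.Scaled
import Cfsg.Agent.Chars.Basic
import Cfsg.Agent.Eq.Def_BlockRank

/-!
# The block of the quotient by a central element of order `p`

A block `b` of `K` with a central `z` of order `p` contains the inflations of a block of `K ⧸ ⟨z⟩`
of smaller defect with at least `l(b)` members.
-/

set_option autoImplicit false
open Cfsg CfsgLib CfsgLib.Blocks CfsgLib.Blocks.HeightZero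
open scoped ComplexConjugate

namespace CfsgLib.Blocks.Contrib

universe u

variable {K : Type u} [Group K] [Fintype K] {p : ℕ} {M : Ideal AlgInt}

/-- Congruence at the regular elements determines the block. -/
theorem sameBlock_of_regular (hM : IsPModular p M) {χ ψ : IrrCharacter K}
    (h : ∀ g : K, ¬ p ∣ orderOf g →
      Congr M (centralChar (χ : K → ℂ) g) (centralChar (ψ : K → ℂ) g)) :
    SameBlock M (χ : K → ℂ) (ψ : K → ℂ) := by
  classical
  have := isMaximal_of_isPModular hM
  haveI : Fintype (ConjClasses K) := Fintype.ofFinite _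
  set B := blockOf (G := K) M (χ : K → ℂ)
  have hB : IsPBlock M B := ⟨χ, rfl⟩
  show ψ ∈ B
  by_contra hψ
  have h1 : omega (χ : K → ℂ) (setIdem B) = 1 := by
    rw [omega_setIdem, if_pos (self_mem_blockOf χ)]
  have h0 : omega (ψ : K → ℂ) (setIdem B) = 0 := by rw [omega_setIdem, if_neg hψ]
  apply not_memLocalIdeal_one (M := M)
  have : Congr M (omega (χ : K → ℂ) (setIdem B)) (omega (ψ : K → ℂ) (setIdem B)) := by
    rw [omega_eq_sum_classes (isCentralElt_setIdem B) (Chars.isClassFunction_coe χ),
      omega_eq_sum_classes (isCentralElt_setIdem B) (Chars.isClassFunction_coe ψ)]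
    refine congr_sum _ fun C _ => ?_
    show Congr M (blockCoeff B C.out * _) (blockCoeff B C.out * _)
    by_cases hC : p ∣ orderOf C.out
    · rw [blockCoeff_eq_zero_of_singular hM hB hC, zero_mul, zero_mul]
      exact congr_refl _
    · show MemLocalIdeal M (_ - _)
      rw [← mul_sub]
      exact memLocalIdeal_mul_left (memLocalRing_blockCoeff hB _) (h _ hC)
  rw [h1, h0] at this
  simpa [Congr] using this

variable {z : K}

theorem zpowers_normal_of_center (hz : z ∈ Subgroup.center K) : (Subgroup.zpowers z).Normal := by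
  refine ⟨fun a ha g => ?_⟩
  have : a ∈ Subgroup.center K := Subgroup.zpowers_le.2 hz ha
  rw [Subgroup.mem_center_iff.1 this g, mul_assoc, mul_inv_cancel, mul_one]
  exact ha

variable [(Subgroup.zpowers z).Normal]

local notation "K̄" => K ⧸ Subgroup.zpowers z

/-- Classes of regular elements keep their size in the quotient. -/
theorem index_centralizer_mk (hp : p.Prime) (hz : z ∈ Subgroup.center K) (hzp : orderOf z = p)
    {g : K} (hg : ¬ p ∣ orderOf g) :
    (Subgroup.centralizer ({(g : K̄)} : Set K̄)).index =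
      (Subgroup.centralizer ({g} : Set K)).index := by
  rw [← Subgroup.index_comap_of_surjective _
    (QuotientGroup.mk'_surjective (Subgroup.zpowers z))]
  congr 1
  ext x
  rw [Subgroup.mem_comap, Subgroup.mem_centralizer_singleton_iff,
    Subgroup.mem_centralizer_singleton_iff, QuotientGroup.mk'_apply, ← QuotientGroup.mk_mul,
    ← QuotientGroup.mk_mul]
  constructor
  · intro h
    set c := (x * g)⁻¹ * (g * x) with hc
    have hcm : c ∈ Subgroup.zpowers z := QuotientGroup.eq.1 h
    have hcc : c ∈ Subgroup.center K := Subgroup.zpowers_le.2 hz hcm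
    have hcp : c ^ p = 1 := by
      obtain ⟨i, hi⟩ := hcm
      simp only at hi
      rw [← hi, ← zpow_natCast, ← zpow_mul, mul_comm, zpow_mul, zpow_natCast, ← hzp,
        pow_orderOf_eq_one, one_zpow]
    have hconj : x⁻¹ * g * x = g * c := by rw [hc]; group
    have hcomm : Commute g c := Subgroup.mem_center_iff.1 hcc g
    have hord : orderOf (g * c) = orderOf g := by
      rw [← hconj]
      simpa using orderOf_injective (MulAut.conj x⁻¹).toMonoidHom (MulAut.conj x⁻¹).injective g
    have hc1 : c = 1 := by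
      by_contra hc1
      have : Fact p.Prime := ⟨hp⟩
      have hco : orderOf c = p := orderOf_eq_prime hcp hc1
      rw [hcomm.orderOf_mul_eq_mul_orderOf_of_coprime
        (by rw [hco]; exact (hp.coprime_iff_not_dvd.2 hg).symm), hco] at hord
      exact hg (hord ▸ dvd_mul_left _ _)
    calc x * g = x * g * c := by rw [hc1, mul_one]
      _ = g * x := by rw [hc]; group
  · intro h; rw [h]

theorem centralChar_inflate (hp : p.Prime) (hz : z ∈ Subgroup.center K) (hzp : orderOf z = p)
    (θ : IrrCharacter K̄) {g : K} (hg : ¬ p ∣ orderOf g) :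
    centralChar (Chars.inflate (Subgroup.zpowers z) θ : K → ℂ) g =
      centralChar (θ : K̄ → ℂ) (g : K̄) := by
  unfold centralChar
  rw [index_centralizer_mk hp hz hzp hg]
  rfl

/-- Inflation preserves and reflects blocks. -/
theorem sameBlock_inflate_iff (hM : IsPModular p M) (hz : z ∈ Subgroup.center K)
    (hzp : orderOf z = p) (θ θ' : IrrCharacter K̄) :
    SameBlock M (Chars.inflate (Subgroup.zpowers z) θ : K → ℂ)
        (Chars.inflate (Subgroup.zpowers z) θ' : K → ℂ) ↔
      SameBlock M (θ : K̄ → ℂ) (θ' : K̄ → ℂ) := by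
  classical
  have : Fact p.Prime := ⟨hM.1⟩
  haveI : Fintype K̄ := Fintype.ofFinite _
  constructor
  · intro h
    refine sameBlock_of_regular hM fun x hx => ?_
    obtain ⟨g₀, rfl⟩ := QuotientGroup.mk_surjective x
    -- a regular lift
    obtain ⟨v, w, hvw, hv, hw⟩ : ∃ v w : K, g₀ = v * w ∧ v ∈ Subgroup.zpowers z ∧
        ¬ p ∣ orderOf w := by
      obtain ⟨v, hv⟩ := exists_isPPart hM.1 g₀
      obtain ⟨w, hvw, hcomm, ⟨e, he⟩, hw⟩ := hv
      refine ⟨v, w, hvw.symm, ?_, hw⟩
      have hdvd : orderOf ((v : K) : K̄) ∣ orderOf v :=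
        orderOf_map_dvd (QuotientGroup.mk' (Subgroup.zpowers z)) v
      rw [← QuotientGroup.eq_one_iff]
      by_contra hne
      apply hx
      obtain ⟨e', -, he'⟩ := (Nat.dvd_prime_pow hM.1).1 (he ▸ hdvd)
      have he'0 : e' ≠ 0 := fun h0 => hne (orderOf_eq_one_iff.1 (by rw [he', h0, pow_zero]))
      have hco : Nat.Coprime (orderOf ((v : K) : K̄)) (orderOf ((w : K) : K̄)) := by
        refine Nat.Coprime.coprime_dvd_right
          (orderOf_map_dvd (QuotientGroup.mk' (Subgroup.zpowers z)) w) ?_
        rw [he']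
        exact Nat.Coprime.pow_left _ (hM.1.coprime_iff_not_dvd.2 hw)
      rw [← hvw, QuotientGroup.mk_mul, (show Commute ((v : K) : K̄) ((w : K) : K̄) from
        hcomm.map (QuotientGroup.mk' (Subgroup.zpowers z))).orderOf_mul_eq_mul_orderOf_of_coprime hco,
        he']
      exact Dvd.dvd.mul_right (dvd_pow_self p he'0) _
    have e : (g₀ : K̄) = (w : K̄) := by
      rw [hvw, QuotientGroup.mk_mul, (QuotientGroup.eq_one_iff v).2 hv, one_mul]
    rw [e, ← centralChar_inflate hM.1 hz hzp θ hw, ← centralChar_inflate hM.1 hz hzp θ' hw]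
    exact h w
  · intro h
    refine sameBlock_of_regular hM fun g hg => ?_
    rw [centralChar_inflate hM.1 hz hzp θ hg, centralChar_inflate hM.1 hz hzp θ' hg]
    exact h (g : K̄)

omit [(Subgroup.zpowers z).Normal] in
/-- The regular parts of a block are spanned by those of its members trivial on `z`. -/
theorem pRegularPart_mem_span_central (hM : IsPModular p M) {b : Set (IrrCharacter K)}
    (hb : IsPBlock M b) (hz : z ∈ Subgroup.center K) (hzp : orderOf z = p) {ξ : IrrCharacter K}
    (hξ : ξ ∈ b) :
    pRegularPart p (ξ : K → ℂ) ∈ Submodule.span ℂ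
      ((fun η : IrrCharacter K => pRegularPart p (η : K → ℂ)) ''
        {η | η ∈ b ∧ (η : K → ℂ) z = (η : K → ℂ) 1}) := by
  classical
  have hp := hM.1
  set w : IrrCharacter K → ℂ := fun η => (η : K → ℂ) z / (η : K → ℂ) 1 with hw
  have hpow : ∀ (η : IrrCharacter K) (i : ℕ) (x : K),
      (η : K → ℂ) (z ^ i * x) = w η ^ i * (η : K → ℂ) x := by
    intro η i
    induction i with
    | zero => intro x; simp
    | succ i ih =>
      intro x
      rw [pow_succ, mul_assoc, ih, Chars.map_mul_of_mem_center η hz x, pow_succ, mul_assoc]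
  set F : K → ℂ := pRegularPart p (ξ : K → ℂ) with hF
  have hexp := Chars.eq_sum_classInner_smul
    (isClassFunction_pRegularPart (p := p) (Chars.isClassFunction_coe ξ))
  have hout : ∀ η : IrrCharacter K, η ∉ b → classInner F (η : K → ℂ) = 0 := fun η hη => by
    rw [hF, classInner_pRegularPart_eq _ (Chars.isCharacter_coe η), regPair_symm,
      regPair_eq_zero_of_ne_block hM hb hξ hη, mul_zero]
  have key : F = ∑ η ∈ b.toFinite.toFinset.filter
      (fun η : IrrCharacter K => (η : K → ℂ) z = (η : K → ℂ) 1),
        ((p : ℂ) * classInner F (η : K → ℂ)) • pRegularPart p (η : K → ℂ) := by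
    funext x
    simp only [Pi.smul_apply, smul_eq_mul, Finset.sum_apply]
    by_cases hx : p ∣ orderOf x
    · simp [hF, pRegularPart, IsPRegular, hx]
    have hr : ∀ φ : K → ℂ, pRegularPart p φ x = φ x := fun φ => by
      simp [pRegularPart, IsPRegular, hx]
    simp only [hr]
    have hi : ∀ i ∈ Finset.range p, ∑ η : IrrCharacter K,
        classInner F (η : K → ℂ) * (w η ^ i * (η : K → ℂ) x) = if i = 0 then F x else 0 := by
      intro i hi
      simp only [← hpow]
      have h1 := congrFun hexp (z ^ i * x)
      simp only [Finset.sum_apply, Pi.smul_apply, smul_eq_mul] at h1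
      rw [← h1]
      split_ifs with h0
      · simp [h0, hF]
      · have hord : orderOf (z ^ i) = p := by
          rw [orderOf_pow' z h0, hzp, Nat.Coprime.gcd_eq_one
            ((hp.coprime_iff_not_dvd).2 fun hd => h0
              (Nat.eq_zero_of_dvd_of_lt hd (Finset.mem_range.1 hi))), Nat.div_one]
        have hc : Commute (z ^ i) x :=
          ((show Commute z x from (Subgroup.mem_center_iff.1 hz x).symm).pow_left i)
        have hco : Nat.Coprime (orderOf (z ^ i)) (orderOf x) := by
          rw [hord]; exact hp.coprime_iff_not_dvd.2 hx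
        have : p ∣ orderOf (z ^ i * x) := by
          rw [hc.orderOf_mul_eq_mul_orderOf_of_coprime hco, hord]
          exact dvd_mul_right _ _
        simp [pRegularPart, IsPRegular, this]
    have hgeom : ∀ η : IrrCharacter K, ∑ i ∈ Finset.range p, w η ^ i =
        if (η : K → ℂ) z = (η : K → ℂ) 1 then (p : ℂ) else 0 := fun η => by
      split_ifs with h
      · simp [hw, h, div_self (Chars.map_one_ne_zero η)]
      · have h1 : w η ≠ 1 := fun h1 => h ((div_eq_one_iff_eq (Chars.map_one_ne_zero η)).1 h1)
        have h2 : w η ^ p = 1 := by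
          have h := hpow η p 1
          rw [← hzp, pow_orderOf_eq_one, one_mul] at h
          rw [← hzp]
          exact mul_right_cancel₀ (Chars.map_one_ne_zero η) (by rw [one_mul]; exact h.symm)
        rw [geom_sum_eq h1, h2, sub_self, zero_div]
    calc F x = ∑ i ∈ Finset.range p, if i = 0 then F x else 0 := by
          rw [Finset.sum_ite_eq' (Finset.range p) 0, if_pos (Finset.mem_range.2 hp.pos)]
      _ = ∑ i ∈ Finset.range p, ∑ η : IrrCharacter K,
            classInner F (η : K → ℂ) * (w η ^ i * (η : K → ℂ) x) :=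
          (Finset.sum_congr rfl hi).symm
      _ = _ := by
          rw [Finset.sum_comm]
          simp only [← Finset.mul_sum, ← Finset.sum_mul, hgeom]
          rw [Finset.sum_filter]
          refine ((Finset.sum_subset (Finset.subset_univ _) fun η _ hη => ?_).trans
            (Finset.sum_congr rfl fun η _ => ?_)).symm
          · rw [hout η fun h => hη ((Set.Finite.mem_toFinset _).2 h)]
            simp
          · split_ifs <;> ring
  rw [key]
  refine Submodule.sum_mem _ fun η hη => Submodule.smul_mem _ _ ?_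
  obtain ⟨hηb, hηz⟩ := Finset.mem_filter.1 hη
  exact Submodule.subset_span ⟨η, ⟨(Set.Finite.mem_toFinset _).1 hηb, hηz⟩, rfl⟩

/-- The block of the quotient. -/
theorem exists_quotient_block (hM : IsPModular p M) {b : Set (IrrCharacter K)}
    (hb : IsPBlock M b) (hz : z ∈ Subgroup.center K) (hzp : orderOf z = p) :
    ∃ B : Set (IrrCharacter K̄), IsPBlock M B ∧ blockDefect p B ≤ blockDefect p b - 1 ∧
      blockRank p b ≤ Nat.card B := by
  classical
  have : Fact p.Prime := ⟨hM.1⟩
  have := isMaximal_of_isPModular hM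
  haveI : Fintype K̄ := Fintype.ofFinite _
  set J : Set (IrrCharacter K) := {η | η ∈ b ∧ (η : K → ℂ) z = (η : K → ℂ) 1} with hJ
  set f : IrrCharacter K → K → ℂ := fun η => pRegularPart p (η : K → ℂ) with hf
  obtain ⟨η₀, hη₀⟩ : J.Nonempty := by
    by_contra hne
    obtain ⟨ξ, hξ⟩ := nonempty_of_isPBlock hb
    have h := pRegularPart_mem_span_central (p := p) hM hb hz hzp hξ
    rw [← hJ, Set.not_nonempty_iff_eq_empty.1 hne, Set.image_empty, Submodule.span_empty,
      Submodule.mem_bot] at h
    have h1 := congrFun h 1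
    simp [pRegularPart, IsPRegular, hM.1.ne_one] at h1
    exact Chars.map_one_ne_zero ξ h1
  have hlift : ∀ η ∈ J, ∃ θ : IrrCharacter K̄, Chars.inflate (Subgroup.zpowers z) θ = η := by
    intro η hη
    exact Chars.exists_inflate_eq _ η (Subgroup.zpowers_le.2
      ((Chars.mem_charKer_iff (Chars.isCharacter_coe η)).2 hη.2))
  obtain ⟨θ₀, hθ₀⟩ := hlift η₀ hη₀
  set B := blockOf M (θ₀ : K̄ → ℂ) with hBdef
  have hB : IsPBlock M B := ⟨θ₀, rfl⟩
  have hmem : ∀ θ : IrrCharacter K̄, θ ∈ B ↔ Chars.inflate (Subgroup.zpowers z) θ ∈ b := by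
    intro θ
    rw [eq_blockOf_of_mem hb hη₀.1, ← hθ₀]
    show SameBlock M _ _ ↔ SameBlock M _ _
    rw [sameBlock_inflate_iff hM hz hzp]
  refine ⟨B, hB, ?_, ?_⟩
  · have hcard : (Nat.card K).factorization p = (Nat.card K̄).factorization p + 1 := by
      rw [← Subgroup.index_eq_card, ← Subgroup.card_mul_index (Subgroup.zpowers z),
        Nat.card_zpowers, hzp,
        Nat.factorization_mul hM.1.ne_zero Subgroup.index_ne_zero_of_finite, Finsupp.add_apply,
        hM.1.factorization_self, add_comm]
    obtain ⟨θ, hθ, hmin⟩ := exists_height_zero (p := p) hB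
    have h1 := minExp_le (p := p) ((hmem θ).1 hθ)
    rw [Chars.charDegree_inflate, (blockHeight_eq_zero_iff' hθ).1 hmin] at h1
    rw [blockDefect_eq, blockDefect_eq, hcard]
    omega
  · have hsub : Submodule.span ℂ (f '' b) ≤ Submodule.span ℂ
        (Set.range fun θ : B => f (Chars.inflate (Subgroup.zpowers z) (θ : IrrCharacter K̄))) := by
      rw [Submodule.span_le]
      rintro _ ⟨ξ, hξ, rfl⟩
      refine Submodule.span_mono ?_ (pRegularPart_mem_span_central (p := p) hM hb hz hzp hξ)
      rintro _ ⟨η, hη, rfl⟩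
      obtain ⟨θ, hθ⟩ := hlift η hη
      exact ⟨⟨θ, (hmem θ).2 (hθ ▸ hη.1)⟩, by simp [hf, hθ]⟩
    show Module.finrank ℂ (Submodule.span ℂ (f '' b)) ≤ _
    rw [Nat.card_eq_fintype_card]
    exact (Submodule.finrank_mono hsub).trans (finrank_range_le_card _)

end CfsgLib.Blocks.Contrib
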